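import Cfsg.Agent.H504.TwoRows
import Cfsg.Agent.H92.KTools
import Cfsg.Prelude.Def_KGroupFacts

/-!
# Rows of S4897 from the degrees of two characters

* `row2_of_out` : `Out S = 1`.
* `ZO θ n` : there are elements of order `n` and `θ` has defect zero for a prime divisor of `n`.
* `rowT_of_deg` : two characters of different degrees with three such orders each.
-/

set_option autoImplicit false

namespace Cfsg.Agent.H279.TwoDeg

open Cfsg Cfsg.Agent.Characters.Core Cfsg.Agent.H504.TwoZ Cfsg.Agent.H504.Zeros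

universe u v

/-- no outer automorphisms: the second row is empty -/
theorem row2_of_out {S : Type u} [Group S] (h : Nat.card (Out S) = 1) : Row2 S := by
  rintro G _ _ N _ ⟨e⟩ hc - hN
  exfalso
  apply hN
  have h1 : Inn S = ⊤ := Subgroup.index_eq_one.1 h
  rw [eq_top_iff]
  intro g _
  have h2 : autS N e g ∈ Inn S := by rw [h1]; trivial
  obtain ⟨s, hs⟩ := h2
  have h3 : ((e.symm s : N) : G)⁻¹ * g ∈ Subgroup.centralizer (N : Set G) := by
    rw [Subgroup.mem_centralizer_iff]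
    intro n hn
    have h4 : MulAut.conj s (e ⟨n, hn⟩) = autS N e g (e ⟨n, hn⟩) := by rw [← hs]
    rw [autS_apply, MulAut.conj_apply, MulEquiv.symm_apply_apply] at h4
    have h5 := congrArg (fun x => ((e.symm x : N) : G)) h4
    simp only [map_mul, map_inv, MulEquiv.symm_apply_apply, Subgroup.coe_mul, InvMemClass.coe_inv,
      MulAut.conjNormal_apply] at h5
    have h6 : g * n = ((e.symm s : N) : G) * n * ((e.symm s : N) : G)⁻¹ * g := by
      rw [h5]; group
    rw [mul_assoc _ g n, h6]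
    group
  rw [hc, Subgroup.mem_bot] at h3
  have h4 : g = (e.symm s : N) := by
    rw [← mul_one ((e.symm s : N) : G), ← h3]
    group
  rw [h4]
  exact (e.symm s).2

variable {S : Type v} [Group S]

/-- elements of order `n` exist and `θ` has defect zero for a prime divisor of `n` -/
def ZO (θ : IrrCharacter S) (n : ℕ) : Prop :=
  (∃ g : S, orderOf g = n) ∧ ∃ p, p.Prime ∧ p ∣ n ∧
    (charDegree (θ : S → ℂ)).factorization p = (Nat.card S).factorization p

theorem ZO.zero [Finite S] {θ : IrrCharacter S} {n : ℕ} (h : ZO θ n) {x : S} (hx : orderOf x = n)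
    (φ : MulAut S) : (θ : S → ℂ) (φ x) = 0 := by
  obtain ⟨-, p, hp, hd, hf⟩ := h
  have : Fact p.Prime := ⟨hp⟩
  exact dz_zero hf (by rw [hx]; exact hd) φ

/-- numerical criterion -/
theorem ZO.mk' [Finite S] {θ : IrrCharacter S} {n c d : ℕ} (p k : ℕ) (hg : Cfsg.Agent.H92.KTools.HasOrd S n)
    (hc : Nat.card S = c) (hd : charDegree (θ : S → ℂ) = d) (hp : p.Prime)
    (h : (p ∣ n ∧ p ^ k ∣ d ∧ d ∣ c ∧ ¬ p ^ (k + 1) ∣ c)) : ZO θ n := by
  obtain ⟨h1, h2, h3, h4⟩ := h
  refine ⟨hg, p, hp, h1, ?_⟩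
  have hc0 : c ≠ 0 := by rw [← hc]; exact Nat.card_pos.ne'
  have hd0 : d ≠ 0 := fun h => hc0 (by rw [h, zero_dvd_iff] at h3; exact h3)
  rw [hc, hd]
  have e1 : k ≤ d.factorization p := (hp.pow_dvd_iff_le_factorization hd0).1 h2
  have e2 : d.factorization p ≤ c.factorization p := (Nat.factorization_le_iff_dvd hd0 hc0).2 h3 p
  have e3 : ¬ k + 1 ≤ c.factorization p := fun h => h4 ((hp.pow_dvd_iff_le_factorization hc0).2 h)
  omega

variable {G : Type u} [Group G]

theorem two_of_deg [Finite G] [Finite S] (N : Subgroup G) [N.Normal] (e : N ≃* S) {θ₁ θ₂ : IrrCharacter S}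
    (hne : charDegree (θ₁ : S → ℂ) ≠ charDegree (θ₂ : S → ℂ)) (s t : Finset ℕ) (hs : ∀ n ∈ s, ZO θ₁ n)
    (ht : ∀ n ∈ t, ZO θ₂ n) (hs3 : 3 ≤ s.card) (ht3 : 3 ≤ t.card) : Two G := by
  obtain ⟨s', hs', hsc, hso⟩ := autNC_of_orders s fun n hn => (hs n hn).1
  obtain ⟨t', ht', htc, hto⟩ := autNC_of_orders t fun n hn => (ht n hn).1
  refine two_of_over N e (θ₁ := θ₁) (θ₂ := θ₂) ?_ s' t' hs' ht' (fun x hx φ => (hs _ (hso x hx)).zero rfl φ)
    (fun x hx φ => (ht _ (hto x hx)).zero rfl φ) (hs3.trans hsc.ge) (ht3.trans htc.ge)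
  intro φ h
  apply hne
  rw [h, charDegree_comp]

/-- **two characters of different degrees**, each of defect zero for three orders -/
theorem rowT_of_deg {S : Type} [Group S] [Finite S] {θ₁ θ₂ : IrrCharacter S}
    (hne : charDegree (θ₁ : S → ℂ) ≠ charDegree (θ₂ : S → ℂ)) (s t : Finset ℕ) (hs : ∀ n ∈ s, ZO θ₁ n)
    (ht : ∀ n ∈ t, ZO θ₂ n) (hs3 : 3 ≤ s.card) (ht3 : 3 ≤ t.card) : RowT S :=
  ⟨Or.inl (two_of_deg ⊤ Subgroup.topEquiv hne s t hs ht hs3 ht3), fun _ _ _ N _ ⟨e⟩ _ _ _ =>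
    Or.inl (two_of_deg N e hne s t hs ht hs3 ht3)⟩

end Cfsg.Agent.H279.TwoDeg
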