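import Cfsg.Agent.H279.ZerosPSU43
import Cfsg.Agent.H279.ZerosPSU2

/-!
# S4895, row `PSU_n(q)`, `n ≥ 4`
-/

set_option autoImplicit false

namespace Cfsg.Agent.H279.ZerosPSU

/-- **S4895, row `PSU_n(q)`, `n ≥ 4`** -/
theorem big_psu {F : Type} [Field F] [Fintype F] {n q : ℕ} (hF : Fintype.card F = q ^ 2) (hn : 4 ≤ n) :
    Cfsg.Agent.H504.Zeros.Big (Cfsg.PSU n F q) := by
  have h2 : 2 ≤ q := LieClassical.HermBasic.two_le hF
  rcases Nat.eq_or_lt_of_le h2 with rfl | h3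
  · exact ZerosPSU2.big_psu2 hF hn
  · rcases Nat.eq_or_lt_of_le hn with rfl | h5
    · rcases Nat.eq_or_lt_of_le h3 with h | h4
      · obtain rfl : q = 3 := h.symm
        exact ZerosPSU43.big_psu43 hF
      · exact big_four hF h4
    · exact big_five hF h3 h5

end Cfsg.Agent.H279.ZerosPSU
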