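import Cfsg.Agent.H279.ZerosTools
import Cfsg.Agent.H93.PspTwo
import Cfsg.Agent.S0270

/-!
# S4895, row `PSp_2m(q)`, `m ≥ 3`
-/

set_option autoImplicit false

namespace Cfsg.Agent.H279.ZerosPSp

open Cfsg Cfsg.Agent.H504.Zeros Cfsg.Agent.H279.ZerosTools Matrix Polynomial
open Cfsg.Agent.H93 Cfsg.Agent.H93.PspCharpoly Cfsg.Agent.H93.PspTwo Cfsg.Agent.LieClassical

universe u

variable {F : Type u} [Field F]

/-- similarity of matrices -/
def Sim {n : Type*} [Fintype n] [DecidableEq n] (A B : Matrix n n F) : Prop :=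
  ∃ u : (Matrix n n F)ˣ, B = u.1 * A * u⁻¹.1

/-- conjugacy in `PSp` -/
theorem sim_of_mk {m : ℕ} (hm : 1 ≤ m) {x y : symplecticGroup (Fin m) F}
    (h : IsConj (x : PSp m F) (y : PSp m F)) : ∃ a : F, a * a = 1 ∧ Sim x.1 (a • y.1) := by
  obtain ⟨g, hg⟩ := isConj_iff.1 h
  obtain ⟨g, rfl⟩ := QuotientGroup.mk_surjective g
  have h2 : (QuotientGroup.mk (g * x * g⁻¹) : PSp m F) = QuotientGroup.mk y := by
    simpa using hg
  rw [eq_comm, QuotientGroup.eq] at h2
  obtain ⟨a, ha⟩ := (SympCenter.mem_center_iff m _).1 h2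
  have ha1 : a * a = 1 := SympCenter.sq_eq_one_of_smul_mem hm (ha ▸ (y⁻¹ * (g * x * g⁻¹)).2)
  refine ⟨a, ha1, ?_⟩
  have h3 : IsConj x (y * (y⁻¹ * (g * x * g⁻¹))) := isConj_iff.2 ⟨g, by group⟩
  obtain ⟨u, hu⟩ := exists_unit_of_isConj h3
  refine ⟨u, ?_⟩
  rw [← hu]
  show a • y.1 = y.1 * (y⁻¹ * (g * x * g⁻¹)).1
  rw [ha, Matrix.mul_smul, Matrix.mul_one]

theorem Sim.charpoly {n : Type*} [Fintype n] [DecidableEq n] {A B : Matrix n n F} (h : Sim A B) :
    A.charpoly = B.charpoly := by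
  obtain ⟨u, hu⟩ := h
  rw [hu, Matrix.coe_units_inv]
  exact (Matrix.charpoly_units_conj u A).symm

theorem Sim.rank {n : Type*} [Fintype n] [DecidableEq n] {A B : Matrix n n F} (h : Sim A B) :
    (A - 1).rank = (B - 1).rank := by
  obtain ⟨u, hu⟩ := h
  have h1 : B - 1 = u.1 * (A - 1) * u⁻¹.1 := by
    rw [hu, mul_sub, sub_mul, mul_one, Units.mul_inv]
  rw [h1, Matrix.rank_mul_eq_left_of_isUnit_det, Matrix.rank_mul_eq_right_of_isUnit_det]
  · exact (Matrix.isUnit_iff_isUnit_det _).1 u.isUnit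
  · exact (Matrix.isUnit_iff_isUnit_det _).1 u⁻¹.isUnit

/-- a matrix of `Sp` with a Jordan block of size two is `p`-singular in `PSp` -/
theorem dvd_order {p : ℕ} [CharP F p] {m : ℕ} {x : symplecticGroup (Fin m) F}
    {v w : Fin m ⊕ Fin m → F} (hv : x.1 *ᵥ v = v + w) (hw : x.1 *ᵥ w = w) (hw0 : w ≠ 0) :
    p ∣ orderOf (x : PSp m F) := by
  have h1 : ((x ^ orderOf (x : PSp m F) : symplecticGroup (Fin m) F) : PSp m F) = 1 := by
    rw [QuotientGroup.mk_pow, pow_orderOf_eq_one]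
  rw [QuotientGroup.eq_one_iff] at h1
  obtain ⟨a, ha⟩ := (SympCenter.mem_center_iff m _).1 h1
  exact dvd_of_pow_eq_smul (p := p) hv hw hw0 (k := orderOf (x : PSp m F)) ha

/-- `mS S` has a Jordan block if `2` is an eigenvalue of `S` -/
theorem mS_mulVec {m : ℕ} {S : Matrix (Fin m) (Fin m) F} {w : Fin m → F} (h : S *ᵥ w = (2 : F) • w) :
    mS S *ᵥ (Sum.elim (0 : Fin m → F) w) = Sum.elim (0 : Fin m → F) w + Sum.elim (-w) w ∧
      mS S *ᵥ (Sum.elim (-w) w) = Sum.elim (-w) w := by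
  have h2 : (2 : F) • w = w + w := two_smul F w
  constructor
  · rw [mS, fromBlocks_mulVec]
    ext (i | i)
    · simp [Matrix.neg_mulVec]
    · simp [h, h2]
  · rw [mS, fromBlocks_mulVec]
    ext (i | i)
    · simp [Matrix.neg_mulVec]
    · simp [h, h2]

/-- extension of a vector by zeros -/
def xv {d : ℕ} (k : ℕ) (w : Fin d → F) : Fin (d + k) → F :=
  fun i => Sum.elim w (0 : Fin k → F) (finSumFinEquiv.symm i)

theorem ext_mulVec {d : ℕ} (k : ℕ) {S : Matrix (Fin d) (Fin d) F} {w : Fin d → F} {a : F}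
    (h : S *ᵥ w = a • w) : PspCharpoly.ext k S *ᵥ xv k w = a • xv k w := by
  have h1 : fromBlocks S 0 0 (0 : Matrix (Fin k) (Fin k) F) *ᵥ (Sum.elim w (0 : Fin k → F)) =
      a • (Sum.elim w (0 : Fin k → F)) := by
    rw [fromBlocks_mulVec]
    ext (i | i)
    · simp [h]
    · simp
  funext i
  have h2 := congrFun h1 (finSumFinEquiv.symm i)
  have h3 : (PspCharpoly.ext k S *ᵥ xv k w) i = (fromBlocks S 0 0 (0 : Matrix (Fin k) (Fin k) F) *ᵥ
      (Sum.elim w (0 : Fin k → F))) (finSumFinEquiv.symm i) := by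
    have h5 : xv k w ∘ (finSumFinEquiv.symm : Fin (d + k) ≃ Fin d ⊕ Fin k).symm =
        Sum.elim w (0 : Fin k → F) := by
      funext j
      simp [xv]
    rw [PspCharpoly.ext, Matrix.reindex_apply, Matrix.submatrix_mulVec_equiv, h5]
    rfl
  rw [h3, h2]
  rfl

/-- `el k S` is `p`-singular if `2` is an eigenvalue of `S` -/
theorem dvd_el {p : ℕ} [CharP F p] {d : ℕ} (k : ℕ) {S : Matrix (Fin d) (Fin d) F} (hS : Sᵀ = S)
    {w : Fin d → F} (hw : w ≠ 0) (h : S *ᵥ w = (2 : F) • w) :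
    p ∣ orderOf ((el k S hS : symplecticGroup (Fin (d + k)) F) : PSp (d + k) F) := by
  obtain ⟨h1, h2⟩ := mS_mulVec (ext_mulVec k h)
  refine dvd_order (x := el k S hS) h1 h2 ?_
  intro h3
  apply hw
  funext i
  have h4 := congrFun h3 (Sum.inr (Fin.castAdd k i))
  simpa [xv] using h4

/-- the symmetric matrix `(2) ⊕ [b, v; v, c]` -/
theorem s3_mulVec (b c v : F) : (s3 2 b c 0 v 0) *ᵥ (![1, 0, 0] : Fin 3 → F) =
    (2 : F) • (![1, 0, 0] : Fin 3 → F) := by
  ext i
  fin_cases i <;> simp [s3, Matrix.mulVec, dotProduct, Fin.sum_univ_three]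

theorem e0_ne : (![1, 0, 0] : Fin 3 → F) ≠ 0 := fun h => one_ne_zero (congrFun h 0)

section Fam

variable [Fintype F]

/-- `q²` elements of `Sp_2m(q)` with a Jordan block, `m ≥ 3`, with different characteristic polynomials -/
theorem exists_fam (k : ℕ) : ∃ f : F × F → symplecticGroup (Fin (3 + k)) F,
    (∀ p, (f p).1.charpoly = ((X ^ 2 + 1) ^ 3 - C (2 + p.1) * X * (X ^ 2 + 1) ^ 2
      + C (2 * p.1 + p.2) * X ^ 2 * (X ^ 2 + 1) - C (2 * p.2) * X ^ 3) * (X ^ 2 + 1) ^ k) ∧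
    (∀ (p : ℕ) [CharP F p] (i : F × F), p ∣ orderOf (f i : PSp (3 + k) F)) ∧
    ∀ i, ∃ S, (f i).1 = mS S := by
  choose a b d h1 h2 using exists_s2 (F := F)
  refine ⟨fun p => el k (s3 2 (a p.1 p.2) (d p.1 p.2) 0 (b p.1 p.2) 0) (s3_transpose _ _ _ _ _ _),
    fun p => ?_, fun p _ i => dvd_el k _ e0_ne (s3_mulVec _ _ _), fun i => ⟨_, rfl⟩⟩
  rw [charpoly_el, det_pS_s3]
  have e1 : (2 : F) + a p.1 p.2 + d p.1 p.2 = 2 + p.1 := by rw [add_assoc, h1]
  have e2 : 2 * a p.1 p.2 + 2 * d p.1 p.2 + a p.1 p.2 * d p.1 p.2 - 0 ^ 2 - b p.1 p.2 ^ 2 - 0 ^ 2 =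
      2 * p.1 + p.2 := by
    have := h1 p.1 p.2
    have := h2 p.1 p.2
    linear_combination 2 * h1 p.1 p.2 + h2 p.1 p.2
  have e3 : 2 * a p.1 p.2 * d p.1 p.2 + 2 * 0 * b p.1 p.2 * 0 - 2 * b p.1 p.2 ^ 2 -
      a p.1 p.2 * 0 ^ 2 - d p.1 p.2 * 0 ^ 2 = 2 * p.2 := by
    linear_combination 2 * h2 p.1 p.2
  rw [e1, e2, e3]

theorem fam_inj {t δ t' δ' : F}
    (h : ((X ^ 2 + 1) ^ 3 - C (2 + t) * X * (X ^ 2 + 1) ^ 2
      + C (2 * t + δ) * X ^ 2 * (X ^ 2 + 1) - C (2 * δ) * X ^ 3 : F[X]) =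
      (X ^ 2 + 1) ^ 3 - C (2 + t') * X * (X ^ 2 + 1) ^ 2
      + C (2 * t' + δ') * X ^ 2 * (X ^ 2 + 1) - C (2 * δ') * X ^ 3) : t = t' ∧ δ = δ' := by
  obtain ⟨h1, h2, -⟩ := poly3_inj h
  have h3 := add_left_cancel h1
  rw [h3] at h2
  exact ⟨h3, add_left_cancel h2⟩

end Fam

section Large

variable {F : Type} [Field F] [Fintype F]

theorem isLie {p m : ℕ} [CharP F p] (hm : 3 ≤ m) : IsLieTypeChar p (PSp m F) :=
  Or.inr (Or.inl ⟨F, inferInstance, inferInstance, inferInstance, m, by omega, fun h => by omega, ⟨MulEquiv.refl _⟩⟩)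

theorem big_four {p : ℕ} [CharP F p] (hp : p.Prime) (k : ℕ) (hq : 4 ≤ Fintype.card F) :
    Big (PSp (3 + k) F) := by
  have : Finite (symplecticGroup (Fin (3 + k)) F) := Subtype.finite
  have hs : IsSimpleGroup (PSp (3 + k) F) := S0270.result (3 + k) (by omega) (fun h => by omega)
  obtain ⟨f, hf, hp', -⟩ := exists_fam (F := F) k
  obtain ⟨s, h1, h2, h3⟩ := exists_nine (Subgroup.center (symplecticGroup (Fin (3 + k)) F)) f
    (fun i j hij => by
      have h3 := charpoly_eq_of_isConj hij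
      rw [hf, hf] at h3
      obtain ⟨h4, h5⟩ := fam_inj (mul_right_cancel₀ (pow_ne_zero _ x2_ne) h3)
      exact Prod.ext h4 h5)
    (by
      rw [SympCenter.card_center (by omega), Nat.card_prod, Nat.card_eq_fintype_card]
      rcases Nat.eq_or_lt_of_le hq with h2 | h2
      · rw [← h2]
        norm_num
      · have h3 : Nat.gcd 2 (Fintype.card F - 1) ≤ 2 := Nat.gcd_le_left _ (by norm_num)
        nlinarith)
  refine big_of_lie hp (isLie (p := p) (by omega)) s h1 (fun g hg => ?_) h2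
  obtain ⟨i, rfl⟩ := h3 g hg
  exact hp' p i

end Large

/-! ### The field with three elements -/

/-- the rank of `a mS S - 1` is at least `m` -/
theorem le_rank {m : ℕ} (S : Matrix (Fin m) (Fin m) F) {a : F} (ha : a ≠ 0) :
    m ≤ (a • mS S - 1).rank := by
  let g : (Fin m → F) →ₗ[F] (Fin m ⊕ Fin m → F) :=
    { toFun := fun x => (a • mS S - 1) *ᵥ Sum.elim x (0 : Fin m → F)
      map_add' := fun x y => by
        rw [← Matrix.mulVec_add]
        congr 1
        ext (i | i) <;> simp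
      map_smul' := fun c x => by
        rw [RingHom.id_apply, ← Matrix.mulVec_smul]
        congr 1
        ext (i | i) <;> simp }
  have hg : Function.Injective g := by
    rw [injective_iff_map_eq_zero]
    intro x hx
    funext i
    have h2 := congrFun hx (Sum.inr i)
    have h3 : g x (Sum.inr i) = a * x i := by
      show ((a • mS S - 1) *ᵥ Sum.elim x (0 : Fin m → F)) (Sum.inr i) = a * x i
      rw [Matrix.sub_mulVec, Matrix.smul_mulVec, Matrix.one_mulVec, mS, fromBlocks_mulVec]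
      simp
    rw [h3] at h2
    exact (mul_eq_zero.1 h2).resolve_left ha
  have hr : LinearMap.range g ≤ LinearMap.range (a • mS S - 1).mulVecLin := by
    rintro _ ⟨x, rfl⟩
    exact ⟨Sum.elim x (0 : Fin m → F), rfl⟩
  have h2 := Submodule.finrank_mono hr
  rw [LinearMap.finrank_range_of_inj hg, Module.finrank_fin_fun] at h2
  exact h2

/-- the transvection is `p`-singular -/
theorem dvd_tt {p : ℕ} [CharP F p] {r n : ℕ} (hr : 0 < r) (hn : 0 < n) :
    p ∣ orderOf ((tt r n : symplecticGroup (Fin n) F) : PSp n F) := by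
  let e : Fin n → F := Pi.single ⟨0, hn⟩ 1
  have he : dd (F := F) r n *ᵥ e = e := by
    rw [dd]
    funext i
    rw [Matrix.mulVec_diagonal]
    by_cases hi : i = ⟨0, hn⟩
    · subst hi
      simp [hr]
    · simp [e, hi]
  refine dvd_order (x := tt r n) (v := Sum.elim (0 : Fin n → F) e) (w := Sum.elim e (0 : Fin n → F)) ?_ ?_ ?_
  · show fromBlocks 1 (dd r n) 0 1 *ᵥ _ = _
    rw [fromBlocks_mulVec]
    ext (i | i)
    · simp [he]
    · simp
  · show fromBlocks 1 (dd r n) 0 1 *ᵥ _ = _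
    rw [fromBlocks_mulVec]
    ext (i | i)
    · simp
    · simp
  · intro h
    have h1 := congrFun h (Sum.inl ⟨0, hn⟩)
    simp [e] at h1

theorem even_card {m : ℕ} (A : Matrix (Fin m ⊕ Fin m) (Fin m ⊕ Fin m) F) :
    ((-1 : F) • A).charpoly = A.charpoly.comp (-X) := by
  rw [charpoly_smul A (neg_ne_zero.2 one_ne_zero), Fintype.card_sum, Fintype.card_fin, ← two_mul,
    pow_mul, neg_one_sq, one_pow, C_1, one_mul, inv_neg, inv_one, C_neg, C_1, neg_one_mul]

/-- the charpoly of `-x` -/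
theorem comp_neg (t δ : F) (k : ℕ) : (((X ^ 2 + 1) ^ 3 - C (2 + t) * X * (X ^ 2 + 1) ^ 2
      + C (2 * t + δ) * X ^ 2 * (X ^ 2 + 1) - C (2 * δ) * X ^ 3) * (X ^ 2 + 1) ^ k : F[X]).comp (-X) =
    ((X ^ 2 + 1) ^ 3 - C (-(2 + t)) * X * (X ^ 2 + 1) ^ 2
      + C (2 * t + δ) * X ^ 2 * (X ^ 2 + 1) - C (-(2 * δ)) * X ^ 3) * (X ^ 2 + 1) ^ k := by
  simp only [mul_comp, add_comp, sub_comp, pow_comp, X_comp, C_comp, one_comp, C_neg]
  ring

section Three

variable {F : Type} [Field F] [Fintype F]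

theorem zmod_three : ∀ y : ZMod 3, y = 0 ∨ y = 1 ∨ y = 2 := by decide

theorem univ_three (hq : Fintype.card F = 3) (x : F) : x = 0 ∨ x = 1 ∨ x = 2 := by
  classical
  have : Fact (Nat.Prime 3) := ⟨by norm_num⟩
  let e := ZMod.ringEquivOfPrime F (p := 3) (by norm_num) hq
  have h := zmod_three
  rcases h (e.symm x) with h | h | h
  · left
    rw [← e.apply_symm_apply x, h, map_zero]
  · right; left
    rw [← e.apply_symm_apply x, h, map_one]
  · right; right
    rw [← e.apply_symm_apply x, h, map_ofNat]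

theorem big_three (k : ℕ) (hq : Fintype.card F = 3) : Big (PSp (3 + k) F) := by
  classical
  have : Finite (symplecticGroup (Fin (3 + k)) F) := Subtype.finite
  have : CharP F 3 := by
    have : Fact (Nat.Prime 3) := ⟨by norm_num⟩
    exact charP_of_card_eq_prime hq
  have h3 : (3 : F) = 0 := by
    have := CharP.cast_eq_zero F 3
    exact_mod_cast this
  have hs : IsSimpleGroup (PSp (3 + k) F) := S0270.result (3 + k) (by omega) (fun h => by omega)
  have h20 : (2 : F) ≠ 0 := fun h => one_ne_zero (α := F) (by linear_combination h3 - h)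
  obtain ⟨f, hf, hp', hf'⟩ := exists_fam (F := F) k
  have hnone : ∀ i (a' : F), a' * a' = 1 → ¬ Sim (f i).1 (a' • (tt (F := F) 1 (3 + k)).1) := by
    intro i a' ha' h
    have ha0 : a' ≠ 0 := left_ne_zero_of_mul_eq_one ha'
    obtain ⟨u, hu⟩ := h
    have h3 : Sim (a' • (f i).1) (tt (F := F) 1 (3 + k)).1 := ⟨u, by
      rw [Matrix.mul_smul, Matrix.smul_mul, ← hu, smul_smul, ha', one_smul]⟩
    have h4 := h3.rank
    rw [rank_tt (by omega)] at h4
    obtain ⟨S, hS⟩ := hf' i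
    rw [hS] at h4
    have h5 := le_rank S ha0
    omega
  have hsome : ∀ i j : F × F, i ≠ (2, 1) → j ≠ (2, 1) → ∀ a' : F, a' * a' = 1 →
      Sim (f i).1 (a' • (f j).1) → i = j := by
    intro i j hi hj a' ha' h
    have h5 := h.charpoly
    rcases mul_self_eq_one_iff.1 ha' with rfl | rfl
    · rw [one_smul, hf, hf] at h5
      obtain ⟨h6, h7⟩ := fam_inj (mul_right_cancel₀ (pow_ne_zero _ x2_ne) h5)
      exact Prod.ext h6 h7
    · rw [even_card, hf, hf, comp_neg] at h5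
      obtain ⟨h6, h7, h8⟩ := poly3_inj (mul_right_cancel₀ (pow_ne_zero _ x2_ne) h5)
      have h9 : j.2 = -i.2 := mul_left_cancel₀ h20 (by linear_combination h8)
      have h10 : i.1 = 1 + i.2 := by
        linear_combination 2 * h6 + h7 - 2 * h9 - (i.1 - j.2 + 3) * h3
      have h11 : j.1 = 1 - i.2 := by linear_combination h6 - h10 - 2 * h3
      rcases univ_three hq i.2 with h12 | h12 | h12
      · exact Prod.ext (by rw [h10, h11, h12]; ring) (by rw [h9, h12, neg_zero])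
      · exact (hi (Prod.ext (by rw [h10, h12]; norm_num) h12)).elim
      · refine (hj (Prod.ext ?_ ?_)).elim
        · show j.1 = 2
          rw [h11, h12]
          linear_combination -h3
        · show j.2 = 1
          rw [h9, h12]
          linear_combination -h3
  refine big_of_fam (p := 3) (by norm_num) (isLie (p := 3) (by omega)) (ι := Option {p : F × F // p ≠ (2, 1)})
    (fun i => match i with
      | none => ((tt 1 (3 + k) : symplecticGroup (Fin (3 + k)) F) : PSp (3 + k) F)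
      | some p => ((f p.1 : symplecticGroup (Fin (3 + k)) F) : PSp (3 + k) F)) ?_ ?_ ?_
  · rintro (_ | i) (_ | j) hij
    · rfl
    · obtain ⟨a', ha', h⟩ := sim_of_mk (by omega) hij.symm
      exact (hnone _ _ ha' h).elim
    · obtain ⟨a', ha', h⟩ := sim_of_mk (by omega) hij
      exact (hnone _ _ ha' h).elim
    · obtain ⟨a', ha', h⟩ := sim_of_mk (by omega) hij
      exact congrArg some (Subtype.ext (hsome _ _ i.2 j.2 _ ha' h))
  · rintro (_ | i)
    · exact dvd_tt (by norm_num) (by omega)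
    · exact hp' 3 i
  · have h13 : Fintype.card {p : F × F // p ≠ (2, 1)} = 8 := by
      rw [Fintype.card_subtype_compl]
      simp [hq]
    rw [Fintype.card_option, h13]

end Three

/-! ### The field with two elements -/

/-- `x + x⁻¹` for `x = mS S` -/
def dS {m : ℕ} (S : Matrix (Fin m) (Fin m) F) : Matrix (Fin m ⊕ Fin m) (Fin m ⊕ Fin m) F :=
  fromBlocks S 0 0 S

theorem dS_mul {m : ℕ} (S T : Matrix (Fin m) (Fin m) F) : dS S * dS T = dS (S * T) := by
  rw [dS, dS, fromBlocks_multiply, dS]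
  simp

theorem dS_inj {m : ℕ} {S T : Matrix (Fin m) (Fin m) F} (h : dS S = dS T) : S = T :=
  (fromBlocks_inj.1 h).1

theorem dS_zero {m : ℕ} : dS (0 : Matrix (Fin m) (Fin m) F) = 0 := fromBlocks_zero

theorem mS_sq {m : ℕ} (S : Matrix (Fin m) (Fin m) F) : mS S * mS S + 1 = mS S * dS S := by
  rw [mS, dS, fromBlocks_multiply, fromBlocks_multiply, ← fromBlocks_one, fromBlocks_add]
  congr 1 <;> simp

theorem ext_mul {d : ℕ} (k : ℕ) (S T : Matrix (Fin d) (Fin d) F) :
    PspCharpoly.ext k S * PspCharpoly.ext k T = PspCharpoly.ext k (S * T) := by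
  rw [PspCharpoly.ext, PspCharpoly.ext, PspCharpoly.ext, Matrix.reindex_apply, Matrix.reindex_apply,
    Matrix.submatrix_mul_equiv, fromBlocks_multiply, Matrix.reindex_apply]
  simp

theorem ext_inj {d : ℕ} (k : ℕ) {S T : Matrix (Fin d) (Fin d) F}
    (h : PspCharpoly.ext k S = PspCharpoly.ext k T) : S = T :=
  (fromBlocks_inj.1 ((Matrix.reindex finSumFinEquiv finSumFinEquiv).injective h)).1

theorem ext_zero {d : ℕ} (k : ℕ) : PspCharpoly.ext k (0 : Matrix (Fin d) (Fin d) F) = 0 := by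
  rw [PspCharpoly.ext, fromBlocks_zero, Matrix.reindex_apply, Matrix.submatrix_zero]
  rfl

theorem sim_D {m : ℕ} {x y : symplecticGroup (Fin m) F} {D D' : Matrix (Fin m ⊕ Fin m) (Fin m ⊕ Fin m) F}
    (h : Sim x.1 y.1) (hx : x.1 * x.1 + 1 = x.1 * D) (hy : y.1 * y.1 + 1 = y.1 * D') :
    ∃ P Q : Matrix (Fin m ⊕ Fin m) (Fin m ⊕ Fin m) F, Q * P = 1 ∧ D' = P * D * Q ∧ P * Q = 1 := by
  obtain ⟨u, hu⟩ := h
  have hP : u.1 * u⁻¹.1 = 1 := Units.mul_inv u
  have hQ : u⁻¹.1 * u.1 = 1 := Units.inv_mul u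
  refine ⟨u.1, u⁻¹.1, hQ, ?_, hP⟩
  have h1 : (y⁻¹ : symplecticGroup (Fin m) F).1 * y.1 = 1 := by
    rw [← Submonoid.coe_mul, inv_mul_cancel, Submonoid.coe_one]
  have h2 : y.1 * D' = y.1 * (u.1 * D * u⁻¹.1) := by
    rw [← hy]
    have h3 : y.1 * (u.1 * D * u⁻¹.1) = u.1 * (x.1 * D) * u⁻¹.1 := by
      calc y.1 * (u.1 * D * u⁻¹.1) = u.1 * x.1 * (u⁻¹.1 * u.1) * D * u⁻¹.1 := by
            rw [hu]; noncomm_ring
        _ = _ := by rw [hQ]; noncomm_ring
    have h4 : y.1 * y.1 = u.1 * (x.1 * x.1) * u⁻¹.1 := by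
      calc y.1 * y.1 = u.1 * x.1 * (u⁻¹.1 * u.1) * x.1 * u⁻¹.1 := by
            rw [hu]; noncomm_ring
        _ = _ := by rw [hQ]; noncomm_ring
    rw [h3, ← hx, mul_add, add_mul, mul_one, hP, h4]
  calc D' = ((y⁻¹ : symplecticGroup (Fin m) F).1 * y.1) * D' := by rw [h1, one_mul]
    _ = ((y⁻¹ : symplecticGroup (Fin m) F).1 * y.1) * (u.1 * D * u⁻¹.1) := by
        rw [mul_assoc, h2, ← mul_assoc]
    _ = _ := by rw [h1, one_mul]

theorem sim_dS {d k : ℕ} {S T : Matrix (Fin d) (Fin d) F} {hS : Sᵀ = S} {hT : Tᵀ = T}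
    (h : Sim (el k S hS).1 (el k T hT).1) : (S * S = 0 → T * T = 0) ∧ (S * S = S → T * T = T) := by
  obtain ⟨P, Q, hQP, hD, hPQ⟩ := sim_D h (mS_sq _) (mS_sq _)
  have h1 : dS (PspCharpoly.ext k (T * T)) = P * dS (PspCharpoly.ext k (S * S)) * Q := by
    rw [← ext_mul, ← ext_mul, ← dS_mul, ← dS_mul, hD]
    calc P * dS (PspCharpoly.ext k S) * Q * (P * dS (PspCharpoly.ext k S) * Q) =
        P * dS (PspCharpoly.ext k S) * (Q * P) * dS (PspCharpoly.ext k S) * Q := by noncomm_ring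
      _ = _ := by rw [hQP]; noncomm_ring
  constructor
  · intro h2
    rw [h2, ext_zero, dS_zero, mul_zero, zero_mul, ← dS_zero, ← ext_zero] at h1
    exact ext_inj k (dS_inj h1)
  · intro h2
    rw [h2, ← hD] at h1
    exact ext_inj k (dS_inj h1)

/-- six symmetric matrices -/
def six (F : Type*) [Field F] : Fin 6 → Matrix (Fin 3) (Fin 3) F :=
  ![s3 1 1 0 1 0 0, s3 0 0 0 1 1 0, s3 1 0 0 0 0 0, s3 1 1 1 0 1 0, s3 1 1 0 0 0 0, s3 0 1 0 0 1 0]

theorem six_transpose (i : Fin 6) : (six F i)ᵀ = six F i := by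
  fin_cases i <;> exact s3_transpose _ _ _ _ _ _

/-- their invariants -/
def tri (F : Type*) [Field F] : Fin 6 → F × F × F :=
  ![(0, 0, 0), (0, 0, 0), (1, 0, 0), (1, 0, 0), (0, 1, 0), (1, 1, 0)]

theorem det_six [CharP F 2] (i : Fin 6) : (pS (six F i)).det = (X ^ 2 + 1) ^ 3 - C (tri F i).1 * X * (X ^ 2 + 1) ^ 2
      + C (tri F i).2.1 * X ^ 2 * (X ^ 2 + 1) - C (tri F i).2.2 * X ^ 3 := by
  have h2 : (2 : F) = 0 := CharTwo.two_eq_zero
  have key : ∀ (a b c u v w e1 e2 e3 : F), a + b + c = e1 → a * b + a * c + b * c - u ^ 2 - v ^ 2 - w ^ 2 = e2 →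
      a * b * c + 2 * u * v * w - a * v ^ 2 - b * w ^ 2 - c * u ^ 2 = e3 →
      (pS (s3 a b c u v w)).det = (X ^ 2 + 1) ^ 3 - C e1 * X * (X ^ 2 + 1) ^ 2
      + C e2 * X ^ 2 * (X ^ 2 + 1) - C e3 * X ^ 3 := by
    intro a b c u v w e1 e2 e3 h1 h2 h3
    rw [det_pS_s3, h1, h2, h3]
  fin_cases i
  · exact key _ _ _ _ _ _ 0 0 0 (by linear_combination h2) (by ring) (by ring)
  · exact key _ _ _ _ _ _ 0 0 0 (by ring) (by linear_combination -h2) (by ring)
  · exact key _ _ _ _ _ _ 1 0 0 (by ring) (by ring) (by ring)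
  · exact key _ _ _ _ _ _ 1 0 0 (by linear_combination h2) (by linear_combination h2) (by ring)
  · exact key _ _ _ _ _ _ 0 1 0 (by linear_combination h2) (by ring) (by ring)
  · exact key _ _ _ _ _ _ 1 1 0 (by ring) (by linear_combination -h2) (by ring)

/-- kernel vectors -/
theorem six_sing [CharP F 2] (i : Fin 6) : ∃ w : Fin 3 → F, w ≠ 0 ∧ six F i *ᵥ w = (2 : F) • w := by
  have h2 : (2 : F) = 0 := CharTwo.two_eq_zero
  have h11 : (1 : F) + 1 = 0 := CharTwo.add_self_eq_zero 1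
  have h1 : ∀ w : Fin 3 → F, w 0 = 1 ∨ w 1 = 1 ∨ w 2 = 1 → w ≠ 0 := by
    rintro w (h | h | h) rfl <;> simp at h
  rw [h2]
  fin_cases i
  · refine ⟨![0, 0, 1], h1 _ (by simp), ?_⟩
    ext j
    fin_cases j <;> simp [six, s3, Matrix.mulVec, dotProduct, Fin.sum_univ_three]
  · refine ⟨![1, 0, 1], h1 _ (by simp), ?_⟩
    ext j
    fin_cases j <;> simp [six, s3, Matrix.mulVec, dotProduct, Fin.sum_univ_three, h11]
  · refine ⟨![0, 0, 1], h1 _ (by simp), ?_⟩
    ext j
    fin_cases j <;> simp [six, s3, Matrix.mulVec, dotProduct, Fin.sum_univ_three]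
  · refine ⟨![0, 1, 1], h1 _ (by simp), ?_⟩
    ext j
    fin_cases j <;> simp [six, s3, Matrix.mulVec, dotProduct, Fin.sum_univ_three, h11]
  · refine ⟨![0, 0, 1], h1 _ (by simp), ?_⟩
    ext j
    fin_cases j <;> simp [six, s3, Matrix.mulVec, dotProduct, Fin.sum_univ_three]
  · refine ⟨![1, 0, 0], h1 _ (by simp), ?_⟩
    ext j
    fin_cases j <;> simp [six, s3, Matrix.mulVec, dotProduct, Fin.sum_univ_three]

theorem six_ne (i : Fin 6) : six F i ≠ 0 := by
  intro h
  fin_cases i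
  · have := congrFun (congrFun h 0) 0
    simp [six, s3] at this
  · have := congrFun (congrFun h 0) 1
    simp [six, s3] at this
  · have := congrFun (congrFun h 0) 0
    simp [six, s3] at this
  · have := congrFun (congrFun h 0) 0
    simp [six, s3] at this
  · have := congrFun (congrFun h 0) 0
    simp [six, s3] at this
  · have := congrFun (congrFun h 1) 1
    simp [six, s3] at this

theorem six_sq0 [CharP F 2] : six F 0 * six F 0 = 0 := by
  have h11 : (1 : F) + 1 = 0 := CharTwo.add_self_eq_zero 1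
  ext i j
  fin_cases i <;> fin_cases j <;> simp [six, s3, Matrix.mul_apply, Fin.sum_univ_three, h11]

theorem six_sq1 : six F 1 * six F 1 ≠ 0 := by
  intro h
  have := congrFun (congrFun h 0) 0
  simp [six, s3, Matrix.mul_apply, Fin.sum_univ_three] at this

theorem six_sq2 : six F 2 * six F 2 = six F 2 := by
  ext i j
  fin_cases i <;> fin_cases j <;> simp [six, s3, Matrix.mul_apply, Fin.sum_univ_three]

theorem six_sq3 [CharP F 2] : six F 3 * six F 3 ≠ six F 3 := by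
  have h11 : (1 : F) + 1 = 0 := CharTwo.add_self_eq_zero 1
  intro h
  have := congrFun (congrFun h 1) 1
  simp [six, s3, Matrix.mul_apply, Fin.sum_univ_three, h11] at this

theorem sim_symm {n : Type*} [Fintype n] [DecidableEq n] {A B : Matrix n n F} (h : Sim A B) : Sim B A := by
  obtain ⟨u, hu⟩ := h
  refine ⟨u⁻¹, ?_⟩
  rw [hu, inv_inv]
  calc A = (u⁻¹.1 * u.1) * A * (u⁻¹.1 * u.1) := by rw [Units.inv_mul, one_mul, mul_one]
    _ = _ := by noncomm_ring

theorem tri_cases (i j : Fin 6) (h : (tri F i).1 = (tri F j).1) (h' : (tri F i).2.1 = (tri F j).2.1) :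
    i = j ∨ (i = 0 ∧ j = 1) ∨ (i = 1 ∧ j = 0) ∨ (i = 2 ∧ j = 3) ∨ (i = 3 ∧ j = 2) := by
  fin_cases i <;> fin_cases j <;> simp [tri] at h h' ⊢

theorem six_inj [CharP F 2] {k : ℕ} {i j : Fin 6}
    (h : Sim (el k (six F i) (six_transpose i)).1 (el k (six F j) (six_transpose j)).1) : i = j := by
  have h1 := h.charpoly
  rw [charpoly_el, charpoly_el, det_six, det_six] at h1
  obtain ⟨h2, h3, -⟩ := poly3_inj (mul_right_cancel₀ (pow_ne_zero _ x2_ne) h1)
  have h4 := sim_dS h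
  have h5 := sim_dS (sim_symm h)
  clear h1 h
  rcases tri_cases i j h2 h3 with h | ⟨rfl, rfl⟩ | ⟨rfl, rfl⟩ | ⟨rfl, rfl⟩ | ⟨rfl, rfl⟩
  · exact h
  · exact absurd (h4.1 six_sq0) six_sq1
  · exact absurd (h5.1 six_sq0) six_sq1
  · exact absurd (h4.2 six_sq2) six_sq3
  · exact absurd (h5.2 six_sq2) six_sq3

section Two

variable {F : Type} [Field F] [Fintype F]

theorem big_two (k : ℕ) (hq : Fintype.card F = 2) : Big (PSp (3 + k) F) := by
  classical
  have : Finite (symplecticGroup (Fin (3 + k)) F) := Subtype.finite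
  have hchar : CharP F 2 := by
    have : Fact (Nat.Prime 2) := ⟨Nat.prime_two⟩
    exact charP_of_card_eq_prime hq
  have hs : IsSimpleGroup (PSp (3 + k) F) := S0270.result (3 + k) (by omega) (fun h => by omega)
  have hone : ∀ a : F, a * a = 1 → a = 1 := by
    intro a ha
    rcases mul_self_eq_one_iff.1 ha with rfl | rfl
    · rfl
    · exact CharTwo.neg_eq 1
  let g : Fin 3 ⊕ Fin 6 → symplecticGroup (Fin (3 + k)) F :=
    Sum.elim (fun r => tt (r.1 + 1) (3 + k)) (fun i => el k (six F i) (six_transpose i))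
  have hg : ∀ i j, Sim (g i).1 (g j).1 → i = j := by
    have hne : ∀ (r : Fin 3) (i : Fin 6),
        ¬ Sim (tt (F := F) (r.1 + 1) (3 + k)).1 (el k (six F i) (six_transpose i)).1 := by
      intro r i h
      have h0 : (tt (F := F) (r.1 + 1) (3 + k)).1 * (tt (F := F) (r.1 + 1) (3 + k)).1 + 1 =
          (tt (F := F) (r.1 + 1) (3 + k)).1 * 0 := by
        have h1 : (tt (F := F) (r.1 + 1) (3 + k)).1 * (tt (F := F) (r.1 + 1) (3 + k)).1 = 1 :=
          congrArg Subtype.val (tt_sq (F := F) (r.1 + 1) (3 + k))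
        rw [h1, mul_zero]
        ext i j
        rw [Matrix.add_apply, CharTwo.add_self_eq_zero, Matrix.zero_apply]
      obtain ⟨P, Q, -, hD, -⟩ := sim_D h h0 (mS_sq _)
      rw [mul_zero, zero_mul, ← dS_zero, ← ext_zero] at hD
      exact six_ne i (ext_inj k (dS_inj hD))
    rintro (r | i) (r' | j) h
    · have h4 := h.rank
      have h5 : ((tt (F := F) (r.1 + 1) (3 + k)).1 - 1).rank = ((tt (F := F) (r'.1 + 1) (3 + k)).1 - 1).rank := h4
      rw [rank_tt (by omega), rank_tt (by omega)] at h5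
      exact congrArg _ (Fin.ext (by omega))
    · exact (hne _ _ h).elim
    · exact (hne _ _ (sim_symm h)).elim
    · exact congrArg _ (six_inj h)
  refine big_of_fam (p := 2) (by norm_num) (isLie (p := 2) (by omega))
    (fun i => (g i : PSp (3 + k) F)) ?_ ?_ (by simp)
  · intro i j hij
    obtain ⟨a, ha, h⟩ := sim_of_mk (by omega) hij
    rw [hone a ha, one_smul] at h
    exact hg i j h
  · rintro (r | i)
    · exact dvd_tt (by omega) (by omega)
    · obtain ⟨w, hw, hw'⟩ := six_sing (F := F) i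
      exact dvd_el k (six_transpose i) hw hw'

end Two

/-- **S4895, row `PSp_2m(q)`, `m ≥ 3`** -/
theorem big_psp {F : Type} [Field F] [Fintype F] {m : ℕ} (hm : 3 ≤ m) :
    Cfsg.Agent.H504.Zeros.Big (Cfsg.PSp m F) := by
  obtain ⟨k, rfl⟩ := Nat.exists_eq_add_of_le hm
  obtain ⟨p, hc⟩ := CharP.exists F
  have hp : p.Prime := CharP.char_is_prime F p
  rcases lt_or_ge (Fintype.card F) 4 with h | h
  · have h1 : 1 < Fintype.card F := Fintype.one_lt_card
    have h2 : Fintype.card F = 2 ∨ Fintype.card F = 3 := by omega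
    rcases h2 with h2 | h2
    · exact big_two k h2
    · exact big_three k h2
  · exact big_four hp k h

end Cfsg.Agent.H279.ZerosPSp
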